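import Cfsg.Agent.H180.RM.Orb
import Cfsg.Agent.H464.RM.ZC
import Cfsg.Agent.H19.Odd.HeEl7
import Cfsg.Agent.H436.HeFive
import Cfsg.Agent.NotCT.Orders

/-!
# S3849, P11: `He` (3,7) (helper469)

`no_cen` : the Sylow `t`-subgroup of a Hall `{s, t}`-subgroup is normal, nonabelian of order `t ^ 3`; `⟨x⟩` its centre;
`s ^ (a - w)` does not divide `|C(x)|`, `s ^ (w + 1)` does not divide `t - 1`.
-/

set_option autoImplicit false
set_option maxRecDepth 100000

namespace Cfsg.Agent.H469.RM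

open Cfsg Subgroup Cfsg.Agent.H571.DExt Cfsg.Agent.H988.CPi Cfsg.Agent.H555.RV Cfsg.Agent.H464.RM
open Cfsg.Agent.H171.Odd (exists_small_orbit)

universe u

/-- the centre of a nonabelian group of order `t ^ 3` -/
theorem mem_zpowers_of_central {S : Type u} [Group S] [Finite S] {t : ℕ} (ht : t.Prime) {T : Subgroup S}
    (hcT : Nat.card T = t ^ 3) (hna : ∃ x ∈ T, ∃ y ∈ T, x * y ≠ y * x) {x z : S} (hx : x ∈ T) (hx1 : x ≠ 1)
    (hxc : ∀ y ∈ T, y * x = x * y) (hz : z ∈ T) (hzc : ∀ y ∈ T, y * z = z * y) : z ∈ zpowers x := by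
  have hft : Fact t.Prime := ⟨ht⟩
  have hT : IsPGroup t T := IsPGroup.of_card hcT
  have hnt : Nontrivial T := ⟨⟨⟨x, hx⟩, 1, fun h => hx1 (congrArg Subtype.val h)⟩⟩
  have hcZ : Nat.card (center T) = t := by
    obtain ⟨k, hk, hk'⟩ := (Nat.dvd_prime_pow ht).1 (hcT ▸ (center T).card_subgroup_dvd_card)
    have h1 : k ≠ 0 := by
      rintro rfl
      have := hT.bot_lt_center
      rw [pow_zero] at hk'
      rw [card_eq_one.1 hk'] at this
      exact lt_irrefl _ this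
    have h3 : k ≠ 3 := by
      rintro rfl
      obtain ⟨x, hx, y, hy, hxy⟩ := hna
      have h4 : center T = ⊤ := by
        apply Subgroup.eq_top_of_card_eq
        rw [hk', hcT]
      have h5 : (⟨x, hx⟩ : T) ∈ center T := by rw [h4]; trivial
      exact hxy (congrArg Subtype.val ((mem_center_iff.1 h5 ⟨y, hy⟩).symm))
    have h4 : k ≠ 2 := by
      rintro rfl
      have h6 : Nat.card (T ⧸ center T) = t := by
        have h5 := (center T).card_mul_index
        rw [hk', hcT] at h5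
        have h7 : (center T).index = Nat.card (T ⧸ center T) := rfl
        rw [← h7]
        have h8 : t ^ 2 * (center T).index = t ^ 2 * t := by rw [h5]; ring
        exact Nat.eq_of_mul_eq_mul_left (pow_pos ht.pos 2) h8
      have h7 : IsCyclic (T ⧸ center T) := isCyclic_of_prime_card h6
      obtain ⟨x, hx, y, hy, hxy⟩ := hna
      have h8 := commutative_of_cyclic_center_quotient (QuotientGroup.mk' (center T)) (by
        rw [QuotientGroup.ker_mk']) (⟨x, hx⟩ : T) ⟨y, hy⟩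
      exact hxy (congrArg Subtype.val h8)
    obtain rfl : k = 1 := by omega
    rw [hk', pow_one]
  have hxZ : (⟨x, hx⟩ : T) ∈ center T := mem_center_iff.2 fun y => Subtype.ext (hxc y y.2)
  have hzZ : (⟨z, hz⟩ : T) ∈ center T := mem_center_iff.2 fun y => Subtype.ext (hzc y y.2)
  have hx1' : (⟨x, hx⟩ : T) ≠ 1 := fun h => hx1 (congrArg Subtype.val h)
  have h1 : zpowers (⟨x, hx⟩ : T) = center T := by
    apply eq_of_le_of_card_ge (zpowers_le.2 hxZ)
    rw [hcZ, Nat.card_zpowers]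
    have h2 : orderOf (⟨x, hx⟩ : T) ∣ t := by rw [← hcZ]; exact Subgroup.orderOf_dvd_natCard _ hxZ
    rcases (Nat.dvd_prime ht).1 h2 with h3 | h3
    · exact absurd (orderOf_eq_one_iff.1 h3) hx1'
    · rw [h3]
  rw [← h1] at hzZ
  obtain ⟨k, hk⟩ := mem_zpowers_iff.1 hzZ
  exact mem_zpowers_iff.2 ⟨k, congrArg Subtype.val hk⟩

theorem no_cen {S : Type u} [Group S] [Finite S] {s t a m w : ℕ} (hs : s.Prime) (ht : t.Prime) (hst : s ≠ t)
    (hS : Nat.card S = s ^ a * t ^ 3 * m) (h2 : ¬ s ∣ m) (hm : ¬ t ∣ m)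
    (hn : ∀ k, 1 ≤ k → k ≤ a → ¬ t ∣ s ^ k - 1) (hw : ¬ s ^ (w + 1) ∣ t - 1) (hwa : w ≤ a)
    {T0 : Subgroup S} (hT0 : Nat.card T0 = t ^ 3) (hna : ∃ x ∈ T0, ∃ y ∈ T0, x * y ≠ y * x) {x : S} (hx : x ∈ T0)
    (hx1 : x ≠ 1) (hxc : ∀ y ∈ T0, y * x = x * y)
    (hc : ¬ s ^ (a - w) ∣ Nat.card (centralizer ({x} : Set S)))
    (K : Subgroup S) : ¬ IsPiHall ({s, t} : Set ℕ) K := by
  intro hK
  have hfs : Fact s.Prime := ⟨hs⟩
  have hft : Fact t.Prime := ⟨ht⟩
  obtain ⟨T, P, hT, hTi, hcT, hP, hcP, hPT⟩ := H180.RM.exists_syl hs ht hst hS h2 hm hn hK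
  have hmn : ¬ t ∣ s ^ a * m := by
    intro h
    rcases ht.dvd_mul.1 h with h | h
    · exact hst ((Nat.prime_dvd_prime_iff_eq ht hs).1 (ht.dvd_of_dvd_pow h)).symm
    · exact hm h
  obtain ⟨g, hg⟩ := exists_conj_eq (s := t) (a := 3) (n := s ^ a * m) (by rw [hS]; ring) hmn hT0 hcT
  have hconj : ∀ y ∈ T0, g * y * g⁻¹ ∈ T := fun y hy => by
    rw [← hg]
    exact ⟨y, hy, rfl⟩
  have hconj' : ∀ z ∈ T, ∃ y ∈ T0, z = g * y * g⁻¹ := fun z hz => by
    rw [← hg] at hz
    obtain ⟨y, hy, rfl⟩ := hz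
    exact ⟨y, hy, rfl⟩
  set x' : S := g * x * g⁻¹ with hx'
  have hx'T : x' ∈ T := hconj x hx
  have hx'1 : x' ≠ 1 := by
    intro h
    apply hx1
    rw [hx', mul_inv_eq_one] at h
    exact mul_left_cancel (a := g) (by rw [h, mul_one])
  have hx'c : ∀ y ∈ T, y * x' = x' * y := by
    intro z hz
    obtain ⟨y, hy, rfl⟩ := hconj' z hz
    rw [hx']
    calc g * y * g⁻¹ * (g * x * g⁻¹) = g * (y * x) * g⁻¹ := by group
      _ = g * (x * y) * g⁻¹ := by rw [hxc y hy]
      _ = g * x * g⁻¹ * (g * y * g⁻¹) := by group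
  have hna' : ∃ x ∈ T, ∃ y ∈ T, x * y ≠ y * x := by
    obtain ⟨a, ha, b, hb, hab⟩ := hna
    refine ⟨_, hconj a ha, _, hconj b hb, fun h => hab ?_⟩
    have h1 : g * (a * b) * g⁻¹ = g * (b * a) * g⁻¹ := by
      calc g * (a * b) * g⁻¹ = g * a * g⁻¹ * (g * b * g⁻¹) := by group
        _ = g * b * g⁻¹ * (g * a * g⁻¹) := h
        _ = g * (b * a) * g⁻¹ := by group
    exact mul_left_cancel (mul_right_cancel h1)
  have hPZ : P ≤ normalizer (zpowers x' : Set S) := by
    intro p hp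
    have hpT : ∀ y ∈ T, p * y * p⁻¹ ∈ T := fun y hy => (mem_normalizer_iff.1 (hPT hp) y).1 hy
    have hpT' : ∀ y ∈ T, p⁻¹ * y * p ∈ T := fun y hy => by
      have := (mem_normalizer_iff.1 (inv_mem (hPT hp)) y).1 hy
      rwa [inv_inv] at this
    have h1 : p * x' * p⁻¹ ∈ zpowers x' := by
      refine mem_zpowers_of_central ht hcT hna' hx'T hx'1 hx'c (hpT _ hx'T) fun y hy => ?_
      calc y * (p * x' * p⁻¹) = p * ((p⁻¹ * y * p) * x') * p⁻¹ := by group
        _ = p * (x' * (p⁻¹ * y * p)) * p⁻¹ := by rw [hx'c _ (hpT' y hy)]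
        _ = p * x' * p⁻¹ * y := by group
    apply mem_normalizer_fintype
    intro z hz
    obtain ⟨k, rfl⟩ := mem_zpowers_iff.1 (SetLike.mem_coe.1 hz)
    have h2 : p * x' ^ k * p⁻¹ = (p * x' * p⁻¹) ^ k := (conj_zpow).symm
    rw [h2]
    exact zpow_mem h1 k
  have hxo : orderOf x' = t := by
    have h1 : orderOf x' ∣ t ^ 3 := by rw [← hcT]; exact Subgroup.orderOf_dvd_natCard _ hx'T
    -- the centre has order `t`
    obtain ⟨j, -, hj⟩ := (Nat.dvd_prime_pow ht).1 h1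
    rcases Nat.eq_zero_or_pos j with h | h
    · rw [h, pow_zero, orderOf_eq_one_iff] at hj
      exact absurd hj hx'1
    · obtain ⟨i, rfl⟩ := Nat.exists_eq_succ_of_ne_zero h.ne'
      set y := x' ^ t ^ i with hy
      have hyo : orderOf y = t := by
        rw [hy, orderOf_pow, hj, Nat.gcd_eq_right (pow_dvd_pow t (Nat.le_succ i)), Nat.pow_div (Nat.le_succ i) ht.pos]
        simp
      have hyT : y ∈ T := pow_mem hx'T _
      have hy1 : y ≠ 1 := by
        intro h
        rw [h, orderOf_one] at hyo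
        exact ht.one_lt.ne hyo
      have hyc : ∀ z ∈ T, z * y = y * z := fun z hz => ((show Commute z x' from hx'c z hz).pow_right _).eq
      have h3 := mem_zpowers_of_central ht hcT hna' hyT hy1 hyc hx'T hx'c
      have h4 : orderOf x' ∣ orderOf y := by
        rw [← Nat.card_zpowers y]
        exact Subgroup.orderOf_dvd_natCard _ h3
      rw [hyo] at h4
      rcases (Nat.dvd_prime ht).1 h4 with h5 | h5
      · exact absurd (orderOf_eq_one_iff.1 h5) hx'1
      · exact h5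
  obtain ⟨y, hy, hy1, hd⟩ := exists_small_orbit (R1 := ⊥) (w := w) hP hPZ (by
    intro g _
    apply mem_normalizer_fintype
    intro n hn
    rw [SetLike.mem_coe, mem_bot] at hn ⊢
    rw [hn]
    group) bot_le (by rw [Nat.card_zpowers, hxo, card_bot]; exact hw)
  rw [mem_bot] at hy1
  have hxy : x' ∈ zpowers y := by
    have h1 : zpowers y = zpowers x' := by
      apply eq_of_le_of_card_ge (zpowers_le.2 hy)
      rw [Nat.card_zpowers, Nat.card_zpowers, hxo]
      have h2 : orderOf y ∣ t := by rw [← hxo, ← Nat.card_zpowers x']; exact Subgroup.orderOf_dvd_natCard _ hy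
      rcases (Nat.dvd_prime ht).1 h2 with h3 | h3
      · exact absurd (orderOf_eq_one_iff.1 h3) hy1
      · rw [h3]
    rw [h1]
    exact mem_zpowers x'
  apply hc
  have h1 : s ^ (a - w) ∣ Nat.card ↥(P ⊓ centralizer ({y} : Set S)) := by
    apply Nat.dvd_of_mul_dvd_mul_right (pow_pos hs.pos w)
    rw [← pow_add, Nat.sub_add_cancel hwa]
    exact hcP.trans hd
  rw [← cent_conj_card (x := x) (g := g)]
  exact h1.trans ((card_dvd_of_le inf_le_right).trans (card_dvd_of_le (H180.RM.cent_le_of_mem hxy)))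

namespace HeRow

open Cfsg.Agent.H19.Odd.HeEl Cfsg.Agent.H19.Odd.HeCnt Cfsg.Agent.H19.Odd
open Cfsg.Agent.SporadicB.HePerm (wd)

theorem card : Nat.card Spor.He = 4030387200 := NotCT.Orders.he ⟨MulEquiv.refl _⟩

theorem he37 : ¬ Dom ({3, 7} : Set ℕ) Spor.He := by
  have := H436.HeFive.finite_he
  have h7 : Fact (Nat.Prime 7) := ⟨by norm_num⟩
  set T0 : Subgroup Spor.He := Heis.P C_U7 C_V7 U7_V7 with hT0
  have hp : IsPGroup 7 T0 := Heis.isPGroup_P C_pow U7_pow V7_pow C_U7 C_V7 U7_V7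
  have hd : 7 ^ 3 ∣ Nat.card T0 := Heis.card_P_dvd C_pow U7_pow V7_pow C_U7 C_V7 U7_V7 (by norm_num) C_ne
  have hcT0 : Nat.card T0 = 7 ^ 3 := by
    obtain ⟨n, hn⟩ := IsPGroup.iff_card.1 hp
    rw [hn] at hd ⊢
    have h1 := (Nat.pow_dvd_pow_iff_le_right (by norm_num : 1 < 7)).1 hd
    have h2 : n ≤ 3 := by
      by_contra h
      have h3 : 7 ^ 4 ∣ Nat.card Spor.He := by
        refine (pow_dvd_pow 7 (by omega : 4 ≤ n)).trans ?_
        rw [← hn]
        exact Subgroup.card_subgroup_dvd_card _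
      rw [card] at h3
      norm_num at h3
    rw [le_antisymm h2 h1]
  have hC : orderOf (wd XC) = 7 := orderOf_eq_prime C_pow C_ne
  have huT : wd U7 ∈ T0 := Heis.mem_P_u _ _ _
  have hvT : wd V7 ∈ T0 := Heis.mem_P_v _ _ _
  refine nd_of (no_cen (s := 3) (t := 7) (a := 3) (m := 435200) (w := 1) (by norm_num) (by norm_num)
    (by norm_num) (by rw [card]; norm_num) (by norm_num) (by norm_num) ?_ (by norm_num) (by norm_num) (T0 := T0) hcT0
    ⟨_, huT, _, hvT, ?_⟩ (Heis.mem_P_x _ _ _) C_ne ?_ ?_)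
  · intro k h1 h2
    interval_cases k <;> norm_num
  · intro h
    have h1 : wd V7 * wd U7 * wd XC ^ 2 = wd V7 * wd U7 * 1 := by rw [← U7_V7, h, mul_one]
    have h2 := orderOf_dvd_of_pow_eq_one (mul_left_cancel h1)
    rw [hC] at h2
    norm_num at h2
  · rintro y ⟨j, i, l, rfl⟩
    exact (((C_V7.symm.pow_left j).mul_left (C_U7.symm.pow_left i)).mul_left (Commute.pow_self _ l)).eq
  · intro h
    have h1 : 3 ^ 2 * 343 ∣ Nat.card ↥(centralizer ({wd XC} : Set Cfsg.Spor.He)) :=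
      Nat.Coprime.mul_dvd_of_dvd_of_dvd (by norm_num) h dvdC
    have h2 := Nat.le_of_dvd Nat.card_pos h1
    have h3 := cardC
    omega

end HeRow

theorem no_he_3_7 {S : Type u} [Group S] [Finite S] (h : Spor.IsoHe S) : ¬ Dom ({3, 7} : Set ℕ) S := by
  obtain ⟨e⟩ := h
  exact fun hD => HeRow.he37 (dom_equiv e hD)

end Cfsg.Agent.H469.RM
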