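import Cfsg.Agent.H464.RM.ZC

/-!
# S3849, P11: a Hall {3,13}-subgroup of order `3 ^ 7 * 13` (helper469)

`exists_struct` : `Q = O_3(K)` has order `3 ^ 6`, `K / Q` is a Frobenius group of order 39;
`no_struct` : contradiction with an elementary abelian normal subgroup of order `3 ^ 5` of the Sylow 3-subgroup.
-/

set_option autoImplicit false

namespace Cfsg.Agent.H469.RM

open Subgroup Cfsg Cfsg.Agent.H571.DExt Cfsg.Agent.H988.CPi Cfsg.Agent.H555.RV Cfsg.Agent.Solvable.SZ
  Cfsg.Agent.H464.RM
open Cfsg.Agent.H171.Odd (Inv1 not_dvd_index_map card_pgroup card_sylow card_dvd_kernel)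
open Cfsg.Agent.H555.PiBS (fix_card)
open scoped Pointwise

universe u

variable {S : Type u} [Group S]

/-- powers prime to the order generate -/
theorem mem_zpowers_pow {G : Type*} [Group G] {x : G} {l : ℕ} (hx : orderOf x = 13) (hl : ¬ 13 ∣ l) :
    x ∈ zpowers (x ^ l) := by
  have h1 : (orderOf x).Coprime l := by
    rw [hx]
    exact (Nat.Prime.coprime_iff_not_dvd (by norm_num)).2 hl
  obtain ⟨m, hm⟩ := exists_pow_eq_self_of_coprime (x := x) (n := l) h1.symm
  have h2 := pow_mem (mem_zpowers (x ^ l)) m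
  rwa [hm] at h2

theorem no_struct [Finite S] {Q P A : Subgroup S} {x : S} (hQ : Nat.card Q = 3 ^ 6) (hP : Nat.card P = 3 ^ 7)
    (hQP : Q ≤ P) (hPQ : P ≤ normalizer (Q : Set S)) (hxQ : x ∈ normalizer (Q : Set S)) (hx : orderOf x = 13)
    (hfp : ∀ y ∈ Q, x * y = y * x → y = 1)
    (hcom : ∀ a ∈ P, a ∉ Q → ∃ l : ℕ, ¬ 13 ∣ l ∧ ∃ q ∈ Q, a * x * a⁻¹ * x⁻¹ = x ^ l * q)
    (hAP : A ≤ P) (hPA : P ≤ normalizer (A : Set S)) (hA : Nat.card A = 3 ^ 5) (hAc : ∀ a ∈ A, ∀ b ∈ A, a * b = b * a)
    (hCA : ¬ 3 ^ 6 ∣ Nat.card (centralizer (A : Set S))) : False := by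
  have hf3 : Fact (Nat.Prime 3) := ⟨Nat.prime_three⟩
  have h13 : Nat.Prime 13 := by norm_num
  have hx13 : x ^ 13 = 1 := by rw [← hx]; exact pow_orderOf_eq_one x
  have hQp : IsPGroup 3 Q := IsPGroup.of_card hQ
  have hrel : ∀ X Y : Subgroup S, X.relIndex Y ≠ 0 := fun X Y => by
    rw [Subgroup.relIndex]
    exact Subgroup.index_ne_zero_of_finite
  -- the order of an invariant subgroup
  have hfix : ∀ R : Subgroup S, R ≤ Q → x ∈ normalizer (R : Set S) →
      Nat.card R = 1 ∨ Nat.card R = 27 ∨ Nat.card R = 729 := by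
    intro R hR hxR
    have h1 : Nat.card R ∣ 3 ^ 6 := by rw [← hQ]; exact card_dvd_of_le hR
    obtain ⟨j, hj, hc⟩ := (Nat.dvd_prime_pow Nat.prime_three).1 h1
    have h2 := fix_card h13 hx13 R hxR
    have h3 : (R ⊓ centralizer {x} : Subgroup S) = ⊥ := by
      rw [eq_bot_iff]
      rintro y ⟨hy, hyx⟩
      exact mem_bot.2 (hfp y (hR hy) (mem_centralizer_singleton_iff.1 hyx).symm)
    rw [h3, card_bot, hc] at h2
    rw [hc]
    unfold Nat.ModEq at h2
    interval_cases j <;> omega
  -- the centre of `Q`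
  set V : Subgroup S := Q ⊓ centralizer (Q : Set S) with hV
  have hVQ : V ≤ Q := inf_le_left
  have hVn : ∀ g ∈ normalizer (Q : Set S), ∀ v ∈ V, g * v * g⁻¹ ∈ V := by
    rintro g hg v ⟨hv, hvc⟩
    have h3 : ∀ y : S, y ∈ Q ↔ g * y * g⁻¹ ∈ Q := mem_normalizer_iff.1 hg
    refine ⟨(h3 v).1 hv, ?_⟩
    show g * v * g⁻¹ ∈ centralizer (Q : Set S)
    rw [mem_centralizer_iff]
    intro z hz
    have h4 : g⁻¹ * z * g ∈ Q := by
      rw [h3]
      simpa [mul_assoc] using hz
    have h5 := mem_centralizer_iff.1 hvc _ h4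
    calc z * (g * v * g⁻¹) = g * ((g⁻¹ * z * g) * v) * g⁻¹ := by group
      _ = g * (v * (g⁻¹ * z * g)) * g⁻¹ := by rw [h5]
      _ = g * v * g⁻¹ * z := by group
  have hVc : ∀ v ∈ V, ∀ q ∈ Q, v * q = q * v := fun v hv q hq => (mem_centralizer_iff.1 hv.2 q hq).symm
  have hxV : x ∈ normalizer (V : Set S) := by
    apply mem_normalizer_fintype
    exact hVn x hxQ
  have hV1 : Nat.card V ≠ 1 := by
    rw [hV, center_card]
    have hnt : Nontrivial Q := by
      rw [← Finite.one_lt_card_iff_nontrivial, hQ]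
      norm_num
    have := hQp.center_nontrivial
    exact (Finite.one_lt_card (α := center Q)).ne'
  by_cases hAQ : A ≤ Q
  · -- `A ≤ Q`
    set A' : Subgroup S := A.map (MulAut.conj x).toMonoidHom with hA'
    have hA'c : Nat.card A' = 3 ^ 5 := by
      rw [hA', card_map_of_injective (MulAut.conj x).injective, hA]
    have hA'Q : A' ≤ Q := by
      rintro _ ⟨a, ha, rfl⟩
      exact (mem_normalizer_iff.1 hxQ a).1 (hAQ ha)
    have hne : A' ≠ A := by
      intro h
      have h1 : x ∈ normalizer (A : Set S) := by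
        apply mem_normalizer_fintype
        intro a ha
        have h2 : x * a * x⁻¹ ∈ A' := ⟨a, ha, rfl⟩
        rw [h] at h2
        exact h2
      have h2 := hfix A hAQ h1
      rw [hA] at h2
      norm_num at h2
    have hA'a : ∀ a ∈ A', ∀ b ∈ A', a * b = b * a := by
      rintro _ ⟨a, ha, rfl⟩ _ ⟨b, hb, rfl⟩
      rw [← map_mul, ← map_mul, hAc a ha b hb]
    -- the join
    have hsup : A ⊔ A' = Q := by
      have hle : A ⊔ A' ≤ Q := sup_le hAQ hA'Q
      have h1 : Nat.card (A ⊔ A' : Subgroup S) ∣ 3 ^ 6 := by rw [← hQ]; exact card_dvd_of_le hle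
      obtain ⟨j, hj, hc⟩ := (Nat.dvd_prime_pow Nat.prime_three).1 h1
      have h2 : 3 ^ 5 ∣ Nat.card (A ⊔ A' : Subgroup S) := by rw [← hA]; exact card_dvd_of_le le_sup_left
      rw [hc] at h2
      have h3 := (Nat.pow_dvd_pow_iff_le_right (by norm_num : 1 < 3)).1 h2
      have h4 : j ≠ 5 := by
        rintro rfl
        have h5 : A = A ⊔ A' := eq_of_le_of_card_ge le_sup_left (by rw [hc, hA])
        apply hne
        apply eq_of_le_of_card_ge _ (by rw [hA, hA'c])
        rw [h5]
        exact le_sup_right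
      apply eq_of_le_of_card_ge hle
      rw [hQ, hc, show j = 6 by omega]
    have hD : A ⊓ A' ≤ V := by
      rintro d ⟨hd, hd'⟩
      refine ⟨hAQ hd, ?_⟩
      show d ∈ centralizer (Q : Set S)
      have h1 : Q ≤ centralizer ({d} : Set S) := by
        rw [← hsup]
        refine sup_le ?_ ?_
        · intro a ha
          rw [mem_centralizer_singleton_iff]
          exact hAc a ha d hd
        · intro a ha
          rw [mem_centralizer_singleton_iff]
          exact hA'a a ha d hd'
      rw [mem_centralizer_iff]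
      intro q hq
      exact mem_centralizer_singleton_iff.1 (h1 hq)
    have h1 := card_inf_mul A A'
    have h2 : A.relIndex A' ≤ A.relIndex Q := relIndex_le_of_le_right hA'Q (hrel _ _)
    have h3 := card_inf_mul A Q
    rw [inf_eq_left.2 hAQ, hA, hQ] at h3
    rw [hA'c] at h1
    have h4 : A.relIndex Q = 3 := by omega
    have h5 : Nat.card ↥(A ⊓ A') ≤ Nat.card V := card_le_of_le hD
    have h6 : 81 ≤ Nat.card ↥(A ⊓ A') := by
      rw [h4] at h2
      by_contra hlt
      have h7 : Nat.card ↥(A ⊓ A') ≤ 80 := by omega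
      have h8 := Nat.mul_le_mul h7 h2
      omega
    rcases hfix V hVQ hxV with h | h | h
    · omega
    · omega
    · have hVe : V = Q := eq_of_le_of_card_ge hVQ (by rw [h, hQ]; norm_num)
      apply hCA
      rw [← hQ]
      apply card_dvd_of_le
      intro q hq
      rw [mem_centralizer_iff]
      intro a ha
      rw [← hVe] at hq
      exact (hVc q hq a (hAQ ha)).symm
  · -- `A` not in `Q`
    obtain ⟨a, haA, haQ⟩ := SetLike.not_le_iff_exists.1 hAQ
    obtain ⟨l, hl, q, hq, hlq⟩ := hcom a (hAP haA) haQ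
    have haN : a ∈ normalizer (Q : Set S) := hPQ (hAP haA)
    set D : Subgroup S := V ⊓ centralizer {a} with hD
    have hDV : D ≤ V := inf_le_left
    set D' : Subgroup S := D.map (MulAut.conj x).toMonoidHom with hD'
    have hD'V : D' ≤ V := by
      rintro _ ⟨d, hd, rfl⟩
      exact hVn x hxQ d (hDV hd)
    have hD'c : Nat.card D' = Nat.card D := card_map_of_injective (MulAut.conj x).injective
    have hDD : (D ⊓ D' : Subgroup S) = ⊥ := by
      rw [eq_bot_iff]
      rintro v ⟨hv, hv'⟩
      apply mem_bot.2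
      have hvV : v ∈ V := hDV hv
      have hva : Commute v a := mem_centralizer_singleton_iff.1 hv.2
      obtain ⟨d, hd, hdv⟩ := hv'
      have hdv : x * d * x⁻¹ = v := hdv
      have hda : Commute d a := mem_centralizer_singleton_iff.1 hd.2
      have h1 : Commute v (x * a * x⁻¹) := by
        rw [← hdv]
        show x * d * x⁻¹ * (x * a * x⁻¹) = x * a * x⁻¹ * (x * d * x⁻¹)
        calc x * d * x⁻¹ * (x * a * x⁻¹) = x * (d * a) * x⁻¹ := by group
          _ = x * (a * d) * x⁻¹ := by rw [hda.eq]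
          _ = x * a * x⁻¹ * (x * d * x⁻¹) := by group
      have h2 : Commute v (x ^ l * q) := by
        rw [← hlq, show a * x * a⁻¹ * x⁻¹ = a * (x * a * x⁻¹)⁻¹ by group]
        exact hva.mul_right h1.inv_right
      have h3 : Commute v q := hVc v hvV q hq
      have h4 : Commute v (x ^ l) := by
        have := h2.mul_right h3.inv_right
        rwa [mul_inv_cancel_right] at this
      obtain ⟨k, hk⟩ := mem_zpowers_iff.1 (mem_zpowers_pow hx hl)
      have h5 : Commute v x := by
        rw [← hk]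
        exact h4.zpow_right k
      exact hfp v (hVQ hvV) h5.symm.eq
    have hcc : Nat.card D * Nat.card D ≤ Nat.card V := by
      have h1 := card_inf_mul D D'
      rw [hDD, card_bot, one_mul, hD'c] at h1
      have h2 : D.relIndex D' ≤ D.relIndex V := relIndex_le_of_le_right hD'V (hrel _ _)
      have h3 := card_inf_mul D V
      rw [inf_eq_left.2 hDV] at h3
      rw [← h3]
      exact Nat.mul_le_mul le_rfl (by omega)
    rcases hfix V hVQ hxV with h | h | h
    · exact hV1 h
    · -- `|V| = 27`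
      have hval : ∀ v ∈ V, a * v * a⁻¹ * v⁻¹ ∈ D := by
        intro v hv
        refine ⟨V.mul_mem (hVn a haN v hv) (V.inv_mem hv), ?_⟩
        show a * v * a⁻¹ * v⁻¹ ∈ centralizer {a}
        rw [mem_centralizer_singleton_iff]
        have h1 : v * a⁻¹ * v⁻¹ ∈ A := (mem_normalizer_iff.1 (hPA (hQP (hVQ hv))) _).1 (A.inv_mem haA)
        have h2 : a * v * a⁻¹ * v⁻¹ ∈ A := by
          rw [show a * v * a⁻¹ * v⁻¹ = a * (v * a⁻¹ * v⁻¹) by group]
          exact A.mul_mem haA h1
        exact hAc _ h2 a haA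
      let φ : V →* D :=
        { toFun := fun v => ⟨a * v * a⁻¹ * (v : S)⁻¹, hval v v.2⟩
          map_one' := Subtype.ext (by simp)
          map_mul' := by
            intro v w
            apply Subtype.ext
            show a * (v * w : S) * a⁻¹ * (v * w : S)⁻¹ = a * v * a⁻¹ * (v : S)⁻¹ * (a * w * a⁻¹ * (w : S)⁻¹)
            have h1 : Commute (v : S)⁻¹ (a * w * a⁻¹ * (w : S)⁻¹) := by
              apply Commute.inv_left
              exact hVc v v.2 _ (hVQ (hDV (hval w w.2)))
            calc a * (v * w : S) * a⁻¹ * (v * w : S)⁻¹ = a * v * a⁻¹ * ((a * w * a⁻¹ * (w : S)⁻¹) * (v : S)⁻¹) := by group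
              _ = a * v * a⁻¹ * ((v : S)⁻¹ * (a * w * a⁻¹ * (w : S)⁻¹)) := by rw [h1.eq]
              _ = _ := by group }
      have h1 := φ.ker.card_mul_index
      rw [Subgroup.index_ker, h] at h1
      have h2 : Nat.card φ.range ≤ Nat.card D := by
        exact Nat.le_of_dvd Nat.card_pos (card_subgroup_dvd_card _)
      have h3 : Nat.card φ.ker ≤ Nat.card D := by
        rw [← card_map_of_injective (f := V.subtype) (subtype_injective V)]
        apply card_le_of_le
        rintro _ ⟨v, hv, rfl⟩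
        refine ⟨v.2, ?_⟩
        show (v : S) ∈ centralizer {a}
        rw [mem_centralizer_singleton_iff]
        have h4 : a * v * a⁻¹ * (v : S)⁻¹ = 1 := congrArg Subtype.val (MonoidHom.mem_ker.1 hv)
        have h5 : a * v * a⁻¹ = v := mul_inv_eq_one.1 h4
        calc (v : S) * a = a * v * a⁻¹ * a := by rw [h5]
          _ = a * v := by group
      rw [h] at hcc
      have h4 := Nat.mul_le_mul h3 h2
      rw [h1] at h4
      have h5 : Nat.card D ≤ 5 ∨ 6 ≤ Nat.card D := by omega
      rcases h5 with h5 | h5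
      · have := Nat.mul_le_mul h5 h5
        omega
      · have := Nat.mul_le_mul h5 h5
        omega
    · -- `V = Q`
      have hVe : V = Q := eq_of_le_of_card_ge hVQ (by rw [h, hQ]; norm_num)
      have h1 : Q ⊓ A ≤ D := by
        rintro b ⟨hb, hbA⟩
        refine ⟨by rw [hVe]; exact hb, ?_⟩
        show b ∈ centralizer {a}
        rw [mem_centralizer_singleton_iff]
        exact hAc b hbA a haA
      have h2 := card_inf_mul Q A
      have h3 : Q.relIndex A ≤ Q.relIndex P := relIndex_le_of_le_right hAP (hrel _ _)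
      have h4 := card_inf_mul Q P
      rw [inf_eq_left.2 hQP, hQ, hP] at h4
      rw [hA] at h2
      have h5 : Q.relIndex P = 3 := by omega
      have h6 : Nat.card ↥(Q ⊓ A) ≤ Nat.card D := card_le_of_le h1
      have h7 : 81 ≤ Nat.card ↥(Q ⊓ A) := by
        rw [h5] at h3
        by_contra hlt
        have h7 : Nat.card ↥(Q ⊓ A) ≤ 80 := by omega
        have h8 := Nat.mul_le_mul h7 h3
        omega
      have h8 : 81 ≤ Nat.card D := h7.trans h6
      have := Nat.mul_le_mul h8 h8
      omega

end Cfsg.Agent.H469.RM
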